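import Cfsg.Agent.Lib.Spor55.GolayCount

set_option autoImplicit false
open Cfsg H15

namespace H55.Golay

/-- Covering radius 4. -/
theorem exists_small (s : Finset GolayPt) : ∃ t : Finset GolayPt, t.card ≤ 4 ∧
    symmDiff s t ∈ CodeSets := by
  induction h : s.card using Nat.strong_induction_on generalizing s with
  | _ n ih =>
    by_cases h4 : s.card ≤ 4
    · exact ⟨s, h4, by rw [symmDiff_self]; exact empty_mem_codeSets⟩
    obtain ⟨r, hr, hr5⟩ := Finset.exists_subset_card_eq (s := s) (n := 5) (by omega)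
    obtain ⟨o, ho, hro⟩ := exists_octad hr5.le
    have h1 := card_symmDiff_add s o
    have h2 := Finset.card_le_card (Finset.subset_inter hr hro)
    rw [ho.2] at h1
    obtain ⟨t, ht, hc⟩ := ih _ (by omega) (symmDiff s o) rfl
    refine ⟨t, ht, ?_⟩
    have := symmDiff_mem_codeSets hc ho.1
    rwa [symmDiff_right_comm, symmDiff_symmDiff_cancel_right] at this

theorem sub_mem_iff (w v : GolayPt → ZMod 2) :
    w - v ∈ golayCode ↔ symmDiff (support₂ w) (support₂ v) ∈ CodeSets := by
  rw [mem_codeSets_iff, wordOf_symmDiff, wordOf_support₂, wordOf_support₂]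
  have : w - v = w + v := by
    funext p
    simp only [Pi.sub_apply, Pi.add_apply]
    generalize w p = a
    generalize v p = b
    revert a b; decide
  rw [this]

theorem symmDiff_of_both {s t u : Finset GolayPt} (h1 : symmDiff s t ∈ CodeSets)
    (h2 : symmDiff s u ∈ CodeSets) : symmDiff t u ∈ CodeSets := by
  have := symmDiff_mem_codeSets h1 h2
  rwa [symmDiff_comm s t, symmDiff_assoc, symmDiff_symmDiff_cancel_left] at this

theorem ncard_small (w : GolayPt → ZMod 2) :
    {v : GolayPt → ZMod 2 | hammingNorm v ≤ 4 ∧ w - v ∈ golayCode}.ncard =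
      {t : Finset GolayPt | t.card ≤ 4 ∧ symmDiff (support₂ w) t ∈ CodeSets}.ncard := by
  apply Set.ncard_congr (fun v _ => support₂ v)
  · rintro v ⟨h1, h2⟩; exact ⟨h1, (sub_mem_iff w v).1 h2⟩
  · intro a b _ _ h; exact support₂_injective h
  · rintro t ⟨h1, h2⟩
    refine ⟨wordOf t, ⟨by rwa [hammingNorm_wordOf], ?_⟩, support₂_wordOf t⟩
    rwa [sub_mem_iff, support₂_wordOf]

theorem mem_sextetOf_iff {t u : Finset GolayPt} (ht : t.card = 4) :
    u ∈ sextetOf t ↔ u.card ≤ 4 ∧ symmDiff t u ∈ CodeSets := by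
  constructor
  · intro hu
    have hS := sextetOf_mem ht
    refine ⟨(hS.2.1 u hu).le, ?_⟩
    by_cases h : t = u
    · rw [h, symmDiff_self]; exact empty_mem_codeSets
    · rw [(sextet_disjoint hS (self_mem_sextetOf t) hu h).symmDiff_eq_sup]
      exact (hS.2.2 t (self_mem_sextetOf t) u hu h).1
  · rintro ⟨h1, h2⟩
    rw [mem_sextetOf]
    have h3 := card_symmDiff_add t u
    rcases card_of_mem_codeSets h2 with e | e | e | e | e
    · exact Or.inl (symmDiff_eq_bot.1 (Finset.card_eq_zero.1 e)).symm
    · have hd : Disjoint t u := by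
        rw [Finset.disjoint_iff_inter_eq_empty, ← Finset.card_eq_zero]; omega
      refine Or.inr ⟨symmDiff t u, ⟨h2, e⟩, ?_, ?_⟩
      · rw [hd.symmDiff_eq_sup]; exact Finset.subset_union_left
      · rw [hd.symmDiff_eq_sup]; exact Finset.union_sdiff_cancel_left hd
    all_goals omega

/-! ### The punctured code -/

/-- extend a word of length 23 by a last symbol -/
def ext23 (u : ZMod 23 → ZMod 2) (e : ZMod 2) : GolayPt → ZMod 2 := fun p => p.elim e u

theorem hammingNorm_punct (w : GolayPt → ZMod 2) :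
    hammingNorm (fun x : ZMod 23 => w (some x)) = ((support₂ w).erase none).card := by
  rw [show hammingNorm (fun x : ZMod 23 => w (some x)) =
    (support₂ fun x : ZMod 23 => w (some x)).card from rfl]
  apply Finset.card_bij (fun x _ => some x)
  · intro x hx
    rw [mem_support₂] at hx
    simp [mem_support₂, hx]
  · intro a _ b _ h; exact Option.some_injective _ h
  · intro p hp
    rw [Finset.mem_erase, mem_support₂] at hp
    obtain ⟨x, rfl⟩ := Option.ne_none_iff_exists'.1 hp.1
    exact ⟨x, (mem_support₂ _ _).2 hp.2, rfl⟩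

theorem punct_seven {w : GolayPt → ZMod 2} (hw : w ∈ golayCode) (h0 : w ≠ 0) :
    7 ≤ hammingNorm (fun x : ZMod 23 => w (some x)) := by
  rw [hammingNorm_punct]
  have h1 := Finset.pred_card_le_card_erase (s := support₂ w) (a := none)
  rcases card_of_mem_codeSets (support₂_mem_codeSets_iff.2 hw) with e | e | e | e | e
  · exact absurd (hammingNorm_eq_zero.1 e) h0
  all_goals omega

theorem ncard_punct (P : ℕ → Prop) :
    {u : ZMod 23 → ZMod 2 | u ∈ {u : ZMod 23 → ZMod 2 | ∃ w ∈ golayCode, ∀ x : ZMod 23,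
      u x = w (some x)} ∧ P (hammingNorm u)}.ncard =
      {s | s ∈ CodeSets ∧ P (s.erase none).card}.ncard := by
  symm
  apply Set.ncard_congr (fun s _ => fun x : ZMod 23 => wordOf s (some x))
  · rintro s ⟨hs, h⟩
    refine ⟨⟨wordOf s, mem_codeSets_iff.1 hs, fun _ => rfl⟩, ?_⟩
    rwa [hammingNorm_punct, support₂_wordOf]
  · rintro a b ⟨ha, -⟩ ⟨hb, -⟩ h
    by_contra hne
    have h7 := punct_seven (Submodule.sub_mem _ (mem_codeSets_iff.1 ha) (mem_codeSets_iff.1 hb))
      (fun e => hne (wordOf_injective (sub_eq_zero.1 e)))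
    have : (fun x : ZMod 23 => (wordOf a - wordOf b) (some x)) = 0 := by
      funext x
      have := congrFun h x
      simp only [Pi.sub_apply, Pi.zero_apply] at this ⊢
      rw [this, sub_self]
    rw [this] at h7
    simp at h7
  · rintro u ⟨⟨w, hw, hu⟩, h⟩
    obtain rfl : u = fun x => w (some x) := funext hu
    refine ⟨support₂ w, ⟨support₂_mem_codeSets_iff.2 hw, by rwa [hammingNorm_punct] at h⟩, ?_⟩
    rw [wordOf_support₂]

theorem erase_ofMask (m : ℕ) : (ofMask m).erase none = ofMask (Nat.land m 8388607) := by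
  rw [ofMask_land]
  ext p
  have : p ∈ ofMask 8388607 ↔ p ≠ none := by revert p; decide
  simp only [Finset.mem_erase, Finset.mem_inter, this, and_comm]

theorem ncard_punct_weight (k : ℕ) :
    {u : ZMod 23 → ZMod 2 | u ∈ {u : ZMod 23 → ZMod 2 | ∃ w ∈ golayCode, ∀ x : ZMod 23,
      u x = w (some x)} ∧ hammingNorm u = k}.ncard =
      countLt2 64 64 (fun u => Nat.beq (wt (Nat.land (cw u) 8388607)) k) := by
  rw [ncard_punct (· = k), ncard_codeSets_filter (fun m => Nat.beq (wt (Nat.land m 8388607)) k)]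
  · intro u hu
    simp [ofMask_cw_mem hu, erase_ofMask, card_ofMask]
  · exact fun s hs => hs.1

end H55.Golay
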